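import Cfsg.Agent.H338.RG.TriL
import Cfsg.Agent.H169.RG.MPsi
import Cfsg.Agent.H884.NA.BaseNA

/-!
# S3509, `E₆`, `²E₆`: the component of a 3-orbit of root groups (helper338)

`Δ : Wk.DFr hp cs r e α θ t`, `hT : Tri cs h (Sx t) θ b c d u v` (`Sx t` of type `A₂ A₂ A₂`, permuted cyclically).

* `Xo α θ x = ⟨X_y : y ∈ orb θ x⟩ ⊓ Fix α`;
* `rep_theta` : the representatives fixed by `α` commute with `θ`;
* `pairO` : `(X, c X c⁻¹)` generates an `r`-group or is conjugate to `(X, Y)`;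
* `baseO`, `condO`, `nsaO` : helper398's `Base`, `Cond` and `NSA` for `M = MK (KT hp α t) (Xo α θ b)`.
-/

set_option autoImplicit false
set_option linter.unusedSectionVars false

namespace Cfsg.Agent.H338.RG

open CoxeterSystem Cfsg Cfsg.Lie Cfsg.Lie.ChevalleyDatum
open Cfsg.Agent.ChevalleyStructure Cfsg.Agent.ChevalleyStructure.Elts Cfsg.Agent.ChevalleyStructure.CoxeterGeom
  Cfsg.Agent.ChevalleyStructure.CoxeterGeomTypes Cfsg.Agent.ChevalleyStructure.NPerm
open Cfsg.Agent.Tits.Roots Cfsg.Agent.Tits.Core Cfsg.Agent.Nodes Cfsg.Agent.Nodes.Reps Cfsg.Agent.Nodes.BNOf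
  Cfsg.Agent.Nodes.RGDChev Cfsg.Agent.Nodes.Bruhat Cfsg.Agent.Nodes.NormalForm Cfsg.Agent.Nodes.Coroot
open Cfsg.Agent.KFacts.RgdField Cfsg.Agent.KFacts.RgdChevCoord Cfsg.Agent.KFacts.RgdSL
open Cfsg.Agent.BpExc Cfsg.Agent.BpExc.TorCent Cfsg.Agent.BpExc.TorChev Cfsg.Agent.BpExc.Tow
  Cfsg.Agent.BpExc.TowChev Cfsg.Agent.BpExc.Fr Cfsg.Agent.BpExc.Pair Cfsg.Agent.BpExc.LangFr Cfsg.Agent.GpExc.Field
  Cfsg.Agent.BpExc.NInst Cfsg.Agent.BpExc.NChev
open Cfsg.Agent.H469.Exc Cfsg.Agent.H316.U6 Cfsg.Agent.H28.RG Cfsg.Agent.H169.RG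
open Cfsg.Agent.H441.RG hiding KT
open Cfsg.Agent.H398.RG (MK Cond Base)

universe u v

/-! ### commuting `p`-groups -/

section Abs

variable {Y : Type*} [Group Y]

/-- elementwise commuting -/
def Cm (A B : Subgroup Y) : Prop := ∀ a ∈ A, ∀ b ∈ B, a * b = b * a

theorem Cm.symm {A B : Subgroup Y} (h : Cm A B) : Cm B A := fun b hb a ha => (h a ha b hb).symm

theorem Cm.sup_left {A A' B : Subgroup Y} (h : Cm A B) (h' : Cm A' B) : Cm (A ⊔ A') B := by
  intro a ha b hb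
  have h1 : A ⊔ A' ≤ Subgroup.centralizer {b} := sup_le
    (fun x hx => Subgroup.mem_centralizer_singleton_iff.2 (h x hx b hb))
    (fun x hx => Subgroup.mem_centralizer_singleton_iff.2 (h' x hx b hb))
  exact Subgroup.mem_centralizer_singleton_iff.1 (h1 ha)

theorem Cm.sup_right {A B B' : Subgroup Y} (h : Cm A B) (h' : Cm A B') : Cm A (B ⊔ B') :=
  (h.symm.sup_left h'.symm).symm

theorem Cm.pgroup {p : ℕ} {A B : Subgroup Y} (h : Cm A B) (hA : IsPGroup p A) (hB : IsPGroup p B) :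
    IsPGroup p ↥(A ⊔ B : Subgroup Y) := by
  refine IsPGroup.to_sup_of_normal_right' (H := A) (K := B) hA hB fun x hx => ?_
  rw [Subgroup.mem_normalizer_iff]
  intro y
  constructor
  · intro hy
    rw [h x hx y hy, mul_inv_cancel_right]
    exact hy
  · intro hy
    have h3 := h x⁻¹ (A.inv_mem hx) _ hy
    have h4 : y = x⁻¹ * (x * y * x⁻¹) * x := by group
    rw [h4, h3]
    simpa using hy

end Abs

section Conc

variable {D : ChevalleyDatum} {l : ℕ} {M : CoxeterMatrix (Fin l)} {hp : IsType D l M} {r : ℕ} [hr : Fact r.Prime]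
  {e : ℕ} {α : MulAut ↥(D.group (KK r))} {θ : (Fin l → ℤ) ≃+ (Fin l → ℤ)} {t : ↥(D.group (KK r))}

/-- the fixed points in the group generated by the root groups of the orbit -/
noncomputable def Xo (D : ChevalleyDatum) (l : ℕ) (α : MulAut ↥(D.group (KK r))) (θ : (Fin l → ℤ) ≃+ (Fin l → ℤ))
    (x : Fin l → ℤ) : Subgroup ↥(D.group (KK r)) := RGD.Sup (XX D l (KK r)) (orb θ x) ⊓ fixedSubgroup α

/-- commuting root groups -/
theorem cm_XX (hs : SL M.toCoxeterSystem hp.isCartan) {x y : Fin l → ℤ} (hx : IsRoot M.toCoxeterSystem hp.isCartan x)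
    (hy : IsRoot M.toCoxeterSystem hp.isCartan y) (h0 : 0 ≤ cpr M.toCoxeterSystem hp.isCartan x y) :
    Cm (XX D l (KK r) x) (XX D l (KK r) y) := by
  have := finite_W hp M.toCoxeterSystem
  intro a ha b hb
  exact Cfsg.Agent.GenExc.Chev.commOK hp M.toCoxeterSystem x y hx hy (ne_neg_of_orth hx hy h0)
    (not_add_of_orth hs hx hy h0) a ha b hb

/-- the frame of a representative -/
theorem fr_rp {w : M.Group} {y : ↥(D.group (KK r))} (hy : Rp M.toCoxeterSystem
    (nsysTT hp M.toCoxeterSystem (locFin r) r) w y) : Fr M.toCoxeterSystem hp.isCartan (TT D (KK r)) (XX D l (KK r))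
      (MulAut.conj y) (repAut M.toCoxeterSystem hp.isCartan w) := by
  have := finite_W hp M.toCoxeterSystem
  have h3 := Fr.conj (tow (k := KK r) hp M.toCoxeterSystem (locFin r) r) ((rp_iff (locFin r)).2 hy)
  rwa [TL_eq hp (locFin r), XL_eq hp (locFin r)] at h3

variable (Δ : Wk.DFr hp M.toCoxeterSystem r e α θ t)

include Δ

/-- **the representatives fixed by `α` commute with `θ`** -/
theorem rep_theta {w : M.Group} {y : ↥(D.group (KK r))} (hy : Rp M.toCoxeterSystem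
    (nsysTT hp M.toCoxeterSystem (locFin r) r) w y) (hα : α y = y) (a : Fin l → ℤ) :
    θ (rep M.toCoxeterSystem hp.isCartan w a) = rep M.toCoxeterSystem hp.isCartan w (θ a) := by
  have F1 := Δ.fr.mul (fr_rp hy)
  have F2 := (fr_rp hy).mul Δ.fr
  have e1 : α * MulAut.conj y = MulAut.conj y * α := by
    ext z
    rw [MulAut.mul_apply, MulAut.mul_apply, MulAut.conj_apply, MulAut.conj_apply, map_mul, map_mul, map_inv, hα]
  rw [e1] at F1
  have h1 := fr_unique hp M.toCoxeterSystem (locFin r) r F1 F2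
  have h2 := congrArg (fun g : (Fin l → ℤ) ≃+ (Fin l → ℤ) => g a) h1
  exact h2

theorem rep_orb {w : M.Group} {y : ↥(D.group (KK r))} (hy : Rp M.toCoxeterSystem
    (nsysTT hp M.toCoxeterSystem (locFin r) r) w y) (hα : α y = y) {x z : Fin l → ℤ} (hz : z ∈ orb θ x) :
    rep M.toCoxeterSystem hp.isCartan w z ∈ orb θ (rep M.toCoxeterSystem hp.isCartan w x) := by
  rcases hz with rfl | rfl | rfl
  · exact Or.inl rfl
  · right; left
    rw [rep_theta Δ hy hα]
  · right; right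
    rw [← rep_theta Δ hy hα, ← rep_theta Δ hy hα]
    rfl

omit Δ in
/-- conjugation of the groups generated by root groups -/
theorem conj_Sup {w : M.Group} {y : ↥(D.group (KK r))} (hy : Rp M.toCoxeterSystem
    (nsysTT hp M.toCoxeterSystem (locFin r) r) w y) {S S' : Set (Fin l → ℤ)}
    (hS : ∀ a ∈ S, IsRoot M.toCoxeterSystem hp.isCartan a)
    (hSS : ∀ a ∈ S, rep M.toCoxeterSystem hp.isCartan w a ∈ S') {x : ↥(D.group (KK r))}
    (hx : x ∈ RGD.Sup (XX D l (KK r)) S) : y * x * y⁻¹ ∈ RGD.Sup (XX D l (KK r)) S' := by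
  have h1 : RGD.Sup (XX D l (KK r)) S ≤ (RGD.Sup (XX D l (KK r)) S').comap (MulAut.conj y).toMonoidHom := by
    refine RGD.Sup_le fun a ha => ?_
    intro z hz
    exact RGD.le_Sup (hSS a ha) (((fr_rp hy).map a (hS a ha) z).2 hz)
  exact h1 hx

/-- conjugation of `Xo` -/
theorem cjS_Xo {w : M.Group} {y : ↥(D.group (KK r))} (hy : Rp M.toCoxeterSystem
    (nsysTT hp M.toCoxeterSystem (locFin r) r) w y) (hα : α y = y) {x : Fin l → ℤ}
    (hx : ∀ a ∈ orb θ x, IsRoot M.toCoxeterSystem hp.isCartan a) :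
    cjS y (Xo D l α θ x) = Xo D l α θ (rep M.toCoxeterSystem hp.isCartan w x) := by
  have key : ∀ {w : M.Group} {y : ↥(D.group (KK r))} (hy : Rp M.toCoxeterSystem
      (nsysTT hp M.toCoxeterSystem (locFin r) r) w y) (hα : α y = y) {x : Fin l → ℤ}
      (hx : ∀ a ∈ orb θ x, IsRoot M.toCoxeterSystem hp.isCartan a),
      cjS y (Xo D l α θ x) ≤ Xo D l α θ (rep M.toCoxeterSystem hp.isCartan w x) := by
    rintro w y hy hα x hx _ ⟨z, hz, rfl⟩
    refine ⟨conj_Sup hy hx (fun a ha => rep_orb Δ hy hα ha) hz.1, ?_⟩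
    change α (y * z * y⁻¹) = y * z * y⁻¹
    rw [map_mul, map_mul, map_inv, hα, hz.2]
  refine le_antisymm (key hy hα hx) ?_
  have hα' : α y⁻¹ = y⁻¹ := by rw [map_inv, hα]
  have h1 := key (x := rep M.toCoxeterSystem hp.isCartan w x) hy.inv hα' (by
    intro a ha
    rcases ha with rfl | rfl | rfl
    · exact (hx _ (Or.inl rfl)).act w
    · rw [rep_theta Δ hy hα]; exact (hx _ (Or.inr (Or.inl rfl))).act w
    · rw [rep_theta Δ hy hα, rep_theta Δ hy hα]; exact (hx _ (Or.inr (Or.inr rfl))).act w)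
  rw [← rep_mul_apply, inv_mul_cancel, map_one, Module.End.one_apply] at h1
  intro z hz
  rw [mem_cjS]
  have h2 := h1 ⟨z, hz, rfl⟩
  change y⁻¹ * z * y⁻¹⁻¹ ∈ _ at h2
  rwa [inv_inv] at h2

variable {b c d u v : Fin l → ℤ} (hs : SL M.toCoxeterSystem hp.isCartan)
  (hT : Tri M.toCoxeterSystem hp.isCartan (Sx M.toCoxeterSystem hp.isCartan (ch hp) t) θ b c d u v)

include hs hT

theorem Xo_le_PK : Xo D l α θ b ≤ PK hp M.toCoxeterSystem α t := by
  have := finite_W hp M.toCoxeterSystem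
  intro x hx
  exact ⟨RGD.Sup_mono (S := orb θ b) (S' := SP M.toCoxeterSystem hp.isCartan (ch hp) t)
    (fun a ha => hT.orbS ha) hx.1, hx.2⟩

theorem Xo_le_QK : Xo D l α θ (-b) ≤ QK hp M.toCoxeterSystem α t := by
  have := finite_W hp M.toCoxeterSystem
  intro x hx
  refine ⟨RGD.Sup_mono (S := orb θ (-b)) (S' := SN M.toCoxeterSystem hp.isCartan (ch hp) t)
    (fun a ha => ?_) hx.1, hx.2⟩
  rw [orb_neg] at ha
  obtain ⟨h1, h2⟩ := hT.orbS ha
  exact ⟨by simpa using hT.neg _ h1, neg_nonneg.1 h2⟩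

theorem comm_PK {x y : ↥(D.group (KK r))} (hx : x ∈ PK hp M.toCoxeterSystem α t) (hy : y ∈ Xo D l α θ b) :
    x * y = y * x := by
  have := finite_W hp M.toCoxeterSystem
  have h1 : Cm (RGD.Sup (XX D l (KK r)) (SP M.toCoxeterSystem hp.isCartan (ch hp) t))
      (RGD.Sup (XX D l (KK r)) (orb θ b)) := by
    intro x hx y hy
    have h2 : RGD.Sup (XX D l (KK r)) (SP M.toCoxeterSystem hp.isCartan (ch hp) t) ≤ Subgroup.centralizer {y} := by
      refine RGD.Sup_le fun a ha x hx => Subgroup.mem_centralizer_singleton_iff.2 ?_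
      have h3 : RGD.Sup (XX D l (KK r)) (orb θ b) ≤ Subgroup.centralizer {x} := by
        refine RGD.Sup_le fun z hz y hy => Subgroup.mem_centralizer_singleton_iff.2 ?_
        exact cm_XX (hp := hp) hs (hT.o3.rts z hz) ha.1.1 (hT.cpr_orb_nonneg hs hz ha.1 ha.2) y hy x hx
      exact (Subgroup.mem_centralizer_singleton_iff.1 (h3 hy)).symm
    exact Subgroup.mem_centralizer_singleton_iff.1 (h2 hx)
  exact h1 x hx.1 y hy.1

theorem comm_QK {x y : ↥(D.group (KK r))} (hx : x ∈ QK hp M.toCoxeterSystem α t) (hy : y ∈ Xo D l α θ (-b)) :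
    x * y = y * x := by
  have := finite_W hp M.toCoxeterSystem
  have h1 : Cm (RGD.Sup (XX D l (KK r)) (SN M.toCoxeterSystem hp.isCartan (ch hp) t))
      (RGD.Sup (XX D l (KK r)) (orb θ (-b))) := by
    intro x hx y hy
    have h2 : RGD.Sup (XX D l (KK r)) (SN M.toCoxeterSystem hp.isCartan (ch hp) t) ≤ Subgroup.centralizer {y} := by
      refine RGD.Sup_le fun a ha x hx => Subgroup.mem_centralizer_singleton_iff.2 ?_
      have h3 : RGD.Sup (XX D l (KK r)) (orb θ (-b)) ≤ Subgroup.centralizer {x} := by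
        refine RGD.Sup_le fun z hz y hy => Subgroup.mem_centralizer_singleton_iff.2 ?_
        have hz' := (orb_neg θ b).1 hz
        have h4 := hT.cpr_orb_nonneg hs hz' (hT.neg _ ha.1) (neg_nonneg.2 ha.2)
        rw [cpr_neg_left _ (hT.rts _ (hT.neg _ ha.1)), cpr_neg_right _ _ _ ha.1.1, neg_neg] at h4
        exact cm_XX (hp := hp) hs (by simpa using (hT.o3.rts _ hz').neg) ha.1.1 h4 y hy x hx
      exact (Subgroup.mem_centralizer_singleton_iff.1 (h3 hy)).symm
    exact Subgroup.mem_centralizer_singleton_iff.1 (h2 hx)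
  exact h1 x hx.1 y hy.1

omit Δ hs in
/-- `Xo` depends on the orbit -/
theorem Xo_congr {x y : Fin l → ℤ} (h : orb θ x = orb θ y) : Xo D l α θ x = Xo D l α θ y := by
  unfold Xo
  rw [h]

omit Δ hT hs in
/-- the representatives commuting with `t` preserve `Sx t` -/
theorem rep_Sx (ht : t ∈ TT D (KK r)) {w : M.Group} {y : ↥(D.group (KK r))} (hy : Rp M.toCoxeterSystem
    (nsysTT hp M.toCoxeterSystem (locFin r) r) w y) (hyt : y * t = t * y) (a : Fin l → ℤ) :
    rep M.toCoxeterSystem hp.isCartan w a ∈ Sx M.toCoxeterSystem hp.isCartan (ch hp) t ↔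
      a ∈ Sx M.toCoxeterSystem hp.isCartan (ch hp) t := by
  have := finite_W hp M.toCoxeterSystem
  have h3 := Fr.conj (tow (k := KK r) hp M.toCoxeterSystem (locFin r) r) ((rp_iff (locFin r)).2 hy)
  have h4 := h3.mem_Sx coordK (t := t) (by rw [TL_eq hp (locFin r)]; exact ht) (by
    rw [MulAut.conj_apply, hyt, mul_inv_cancel_right]) a
  exact h4

omit Δ hs in
/-- orthogonality, with signs -/
theorem ortE (hs : SL M.toCoxeterSystem hp.isCartan) {x z : Fin l → ℤ} (hx : x ∈ ({b, c, d} : Set (Fin l → ℤ)) ∨ -x ∈ ({b, c, d} : Set (Fin l → ℤ)))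
    (hz : z ∈ ({b, c, d} : Set (Fin l → ℤ)) ∨ -z ∈ ({b, c, d} : Set (Fin l → ℤ))) :
    IsRoot M.toCoxeterSystem hp.isCartan x ∧ IsRoot M.toCoxeterSystem hp.isCartan z ∧
    cpr M.toCoxeterSystem hp.isCartan x (θ z) = 0 ∧ cpr M.toCoxeterSystem hp.isCartan x (θ (θ z)) = 0 ∧
      cpr M.toCoxeterSystem hp.isCartan (θ x) (θ (θ z)) = 0 := by
  have := finite_W hp M.toCoxeterSystem
  have key : ∀ {x z : Fin l → ℤ}, x ∈ ({b, c, d} : Set (Fin l → ℤ)) → z ∈ ({b, c, d} : Set (Fin l → ℤ)) →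
      IsRoot M.toCoxeterSystem hp.isCartan x ∧ IsRoot M.toCoxeterSystem hp.isCartan z ∧
      cpr M.toCoxeterSystem hp.isCartan x (θ z) = 0 ∧ cpr M.toCoxeterSystem hp.isCartan x (θ (θ z)) = 0 ∧
      cpr M.toCoxeterSystem hp.isCartan (θ x) (θ (θ z)) = 0 := fun hx hz => by
    obtain ⟨h1, h2, h3, -⟩ := hT.ort3 hs hx hz
    exact ⟨hT.rbcd hx, hT.rbcd hz, h1, h2, h3⟩
  have key2 : ∀ {x z : Fin l → ℤ}, x ∈ ({b, c, d} : Set (Fin l → ℤ)) →
      (z ∈ ({b, c, d} : Set (Fin l → ℤ)) ∨ -z ∈ ({b, c, d} : Set (Fin l → ℤ))) →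
      IsRoot M.toCoxeterSystem hp.isCartan x ∧ IsRoot M.toCoxeterSystem hp.isCartan z ∧
      cpr M.toCoxeterSystem hp.isCartan x (θ z) = 0 ∧ cpr M.toCoxeterSystem hp.isCartan x (θ (θ z)) = 0 ∧
      cpr M.toCoxeterSystem hp.isCartan (θ x) (θ (θ z)) = 0 := by
    intro x z hx hz
    rcases hz with hz | hz
    · exact key hx hz
    · obtain ⟨h1, h2, h3, h4, h5⟩ := key hx hz
      have hzr : IsRoot M.toCoxeterSystem hp.isCartan z := by simpa using h2.neg
      have hz1 := (hT.root _).2 hzr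
      have hz2 := (hT.root _).2 hz1
      rw [map_neg, cpr_neg_right _ _ _ hz1] at h3
      rw [map_neg, map_neg, cpr_neg_right _ _ _ hz2] at h4 h5
      exact ⟨h1, hzr, by omega, by omega, by omega⟩
  rcases hx with hx | hx
  · exact key2 hx hz
  · obtain ⟨h1, h2, h3, h4, h5⟩ := key2 hx hz
    have hxr : IsRoot M.toCoxeterSystem hp.isCartan x := by simpa using h1.neg
    have hz1 := (hT.root _).2 h2
    have hz2 := (hT.root _).2 hz1
    rw [cpr_neg_left _ hz1] at h3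
    rw [cpr_neg_left _ hz2] at h4
    rw [map_neg, cpr_neg_left _ hz2] at h5
    exact ⟨hxr, h2, by omega, by omega, by omega⟩

omit Δ hT hs in
/-- two root groups of non-opposite roots generate an `r`-group -/
theorem pgroup_XX {x y : Fin l → ℤ} (hx : IsRoot M.toCoxeterSystem hp.isCartan x)
    (hy : IsRoot M.toCoxeterSystem hp.isCartan y) (hxy : x ≠ -y) :
    IsPGroup r ↥(XX D l (KK r) x ⊔ XX D l (KK r) y : Subgroup ↥(D.group (KK r))) := by
  have := finite_W hp M.toCoxeterSystem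
  have h1 := isPGroup_XL (tow (k := KK r) hp M.toCoxeterSystem (locFin r) r) hx hy hxy
  rwa [XL_eq hp (locFin r)] at h1

/-- **The pairs of conjugates.** -/
theorem pairO {g : ↥(D.group (KK r))} (hg : g ∈ fixC α t) :
    IsPGroup r ↥(Xo D l α θ b ⊔ cjS g (Xo D l α θ b) : Subgroup ↥(D.group (KK r))) ∨
      ∃ x ∈ PK hp M.toCoxeterSystem α t, cjS g (Xo D l α θ b) = cjS x (Xo D l α θ (-b)) := by
  have := finite_W hp M.toCoxeterSystem
  obtain ⟨w, x, hx, y, hyC, hy, z, hz, -, rfl⟩ := Δ.formC (locFin r) hg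
  obtain ⟨hαy, hyt⟩ := mem_fixC.1 hyC
  have h1 : cjS z (Xo D l α θ b) = Xo D l α θ b := cjS_eq_of_comm fun a ha => comm_PK Δ hs hT hz ha
  have h2 : cjS x (Xo D l α θ b) = Xo D l α θ b := cjS_eq_of_comm fun a ha => comm_PK Δ hs hT hx ha
  have h3 := cjS_Xo Δ hy hαy (x := b) hT.o3.rts
  have hwS : rep M.toCoxeterSystem hp.isCartan w b ∈ Sx M.toCoxeterSystem hp.isCartan (ch hp) t :=
    (rep_Sx Δ.mem hy hyt b).2 hT.bS
  have hw3 : θ (θ (θ (rep M.toCoxeterSystem hp.isCartan w b))) = rep M.toCoxeterSystem hp.isCartan w b := by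
    rw [rep_theta Δ hy hαy, rep_theta Δ hy hαy, rep_theta Δ hy hαy, hT.tb]
  obtain ⟨a, ha3, haB, hao⟩ := hT.exists_orb hwS hw3
  have h4 : cjS (x * y * z) (Xo D l α θ b) = cjS x (Xo D l α θ a) := by
    rw [cjS_mul, h1, cjS_mul, h3, Xo_congr hT hao]
  rw [h4]
  by_cases hab : a = -b
  · right
    exact ⟨x, hx, by rw [hab]⟩
  · left
    have h5 : Xo D l α θ b ⊔ cjS x (Xo D l α θ a) = cjS x (Xo D l α θ b ⊔ Xo D l α θ a) := by
      rw [cjS_sup, h2]
    rw [h5]
    apply cjS_pgroup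
    have hb' : b ∈ ({b, c, d} : Set (Fin l → ℤ)) ∨ -b ∈ ({b, c, d} : Set (Fin l → ℤ)) := Or.inl (by simp)
    obtain ⟨br, ar, q1, q2, q3⟩ := ortE (hp := hp) hT hs hb' haB
    obtain ⟨-, -, p1, p2, p3⟩ := ortE (hp := hp) hT hs hb' hb'
    obtain ⟨-, -, s1, s2, s3⟩ := ortE (hp := hp) hT hs haB haB
    obtain ⟨-, -, u1, u2, u3⟩ := ortE (hp := hp) hT hs haB hb'
    have hr1 : ∀ {x : Fin l → ℤ}, IsRoot M.toCoxeterSystem hp.isCartan x → IsRoot M.toCoxeterSystem hp.isCartan (θ x) :=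
      fun hx => (hT.root _).2 hx
    have hne : b ≠ -a := fun h => hab (by rw [h, neg_neg])
    have hne1 : θ b ≠ -θ a := fun h => hne (θ.injective (by rw [h, map_neg]))
    have hne2 : θ (θ b) ≠ -θ (θ a) := fun h => hne1 (θ.injective (by rw [h, map_neg]))
    have c01 : Cm (XX D l (KK r) b ⊔ XX D l (KK r) a) (XX D l (KK r) (θ b) ⊔ XX D l (KK r) (θ a)) :=
      ((cm_XX (hp := hp) hs br (hr1 br) p1.ge).sup_right (cm_XX (hp := hp) hs br (hr1 ar) q1.ge)).sup_left
        ((cm_XX (hp := hp) hs ar (hr1 br) u1.ge).sup_right (cm_XX (hp := hp) hs ar (hr1 ar) s1.ge))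
    have c02 : Cm (XX D l (KK r) b ⊔ XX D l (KK r) a) (XX D l (KK r) (θ (θ b)) ⊔ XX D l (KK r) (θ (θ a))) :=
      ((cm_XX (hp := hp) hs br (hr1 (hr1 br)) p2.ge).sup_right (cm_XX (hp := hp) hs br (hr1 (hr1 ar)) q2.ge)).sup_left
        ((cm_XX (hp := hp) hs ar (hr1 (hr1 br)) u2.ge).sup_right (cm_XX (hp := hp) hs ar (hr1 (hr1 ar)) s2.ge))
    have c12 : Cm (XX D l (KK r) (θ b) ⊔ XX D l (KK r) (θ a))
        (XX D l (KK r) (θ (θ b)) ⊔ XX D l (KK r) (θ (θ a))) :=
      ((cm_XX (hp := hp) hs (hr1 br) (hr1 (hr1 br)) p3.ge).sup_right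
        (cm_XX (hp := hp) hs (hr1 br) (hr1 (hr1 ar)) q3.ge)).sup_left
        ((cm_XX (hp := hp) hs (hr1 ar) (hr1 (hr1 br)) u3.ge).sup_right
          (cm_XX (hp := hp) hs (hr1 ar) (hr1 (hr1 ar)) s3.ge))
    have g0 := pgroup_XX (hp := hp) (r := r) br ar hne
    have g1 := pgroup_XX (hp := hp) (r := r) (hr1 br) (hr1 ar) hne1
    have g2 := pgroup_XX (hp := hp) (r := r) (hr1 (hr1 br)) (hr1 (hr1 ar)) hne2
    have g := (c02.sup_left c12).pgroup (c01.pgroup g0 g1) g2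
    refine g.to_le (sup_le ?_ ?_)
    · refine inf_le_left.trans (RGD.Sup_le ?_)
      rintro y (rfl | rfl | rfl)
      · exact (le_sup_left.trans le_sup_left).trans le_sup_left
      · exact (le_sup_left.trans le_sup_right).trans le_sup_left
      · exact le_sup_left.trans le_sup_right
    · refine inf_le_left.trans (RGD.Sup_le ?_)
      rintro y (rfl | rfl | rfl)
      · exact (le_sup_right.trans le_sup_left).trans le_sup_left
      · exact (le_sup_right.trans le_sup_right).trans le_sup_left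
      · exact le_sup_right.trans le_sup_right

theorem XoDisj {x : ↥(D.group (KK r))} (hx : x ∈ Xo D l α θ b) (hx' : x ∈ Xo D l α θ (-b)) : x = 1 := by
  have h1 : x ∈ PK hp M.toCoxeterSystem α t ⊓ QK hp M.toCoxeterSystem α t :=
    ⟨Xo_le_PK Δ hs hT hx, Xo_le_QK Δ hs hT hx'⟩
  rw [Δ.PK_inf_QK (locFin r)] at h1
  exact Subgroup.mem_bot.1 h1

/-- `PK` is an `r`-group -/
theorem pgroup_PK : IsPGroup r ↥(PK hp M.toCoxeterSystem α t) := by
  have := finite_W hp M.toCoxeterSystem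
  have h1 := isPGroup_Up (tow (k := KK r) hp M.toCoxeterSystem (locFin r) r) (χ := ch hp) (t := t)
  unfold Up at h1
  rw [XL_eq hp (locFin r)] at h1
  exact h1.to_le inf_le_left

/-- **helper398's base pair** -/
theorem baseO [Finite ↥(fixC α t)] {q e' : ℕ} (hq : q = r ^ e') (hI : Img q (Xo D l α θ b) (Xo D l α θ (-b))) :
    Base r (KT hp α t) (Xo D l α θ b) (Xo D l α θ (-b)) (PK hp M.toCoxeterSystem α t)
      (QK hp M.toCoxeterSystem α t) (TK α) where
  leX := (Xo_le_PK Δ hs hT).trans (le_sup_left.trans le_sup_left)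
  leP := le_sup_left.trans le_sup_left
  leQ := le_sup_right.trans le_sup_left
  leT := le_sup_right
  gen := le_rfl
  hP := fun g hg x hx => by
    rw [comm_PK Δ hs hT hg hx, mul_inv_cancel_right]
    exact hx
  hQ := fun g hg x hx => by
    rw [comm_QK Δ hs hT hg hx, mul_inv_cancel_right]
    exact hx
  hT := fun g hg x hx => by
    have := finite_W hp M.toCoxeterSystem
    have h1 := cjS_Xo Δ (w := 1) (y := g) (rp_of_mem (cs := M.toCoxeterSystem) hg.1) hg.2 (x := b) hT.o3.rts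
    rw [map_one, Module.End.one_apply] at h1
    rw [← h1]
    exact ⟨x, hx, rfl⟩
  pgrp := (pgroup_PK Δ hs hT).to_le (Xo_le_PK Δ hs hT)
  ne := hI.ne_bot
  npg := hI.npg hq fun _ hx hx' => XoDisj Δ hs hT hx hx'
  conjY := by
    obtain ⟨k, hk, e⟩ := hI.conjY
    refine ⟨k, ?_, e⟩
    exact (sup_le ((Xo_le_PK Δ hs hT).trans (le_sup_left.trans le_sup_left))
      ((Xo_le_QK Δ hs hT).trans (le_sup_right.trans le_sup_left))) hk
  pair := by
    intro g hg
    rcases pairO Δ hs hT (KT_le Δ hg) with h3 | ⟨u, hu, h3⟩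
    · exact Or.inl h3
    · right
      refine ⟨u⁻¹, Subgroup.inv_mem _ ((le_sup_left.trans le_sup_left : PK hp M.toCoxeterSystem α t ≤ KT hp α t) hu),
        ?_, ?_⟩
      · exact cjS_eq_of_comm fun x hx => comm_PK Δ hs hT (inv_mem hu) hx
      · change cjS u⁻¹ (cjS g (Xo D l α θ b)) = Xo D l α θ (-b)
        rw [h3, ← cjS_mul, inv_mul_cancel, cjS_one]
  core := Δ.pCore_KT (locFin r)

/-- `Cond` -/
theorem condO [Finite ↥(fixC α t)] {q e' : ℕ} (hq : q = r ^ e') (h4 : 4 ≤ q)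
    (hI : ImgK q (Xo D l α θ b) (Xo D l α θ (-b))) : Cond (KT hp α t) (Xo D l α θ b) (Xo D l α θ (-b)) := by
  have hfin : Finite ↥(KT hp α t) := Finite.of_injective _ (Subgroup.inclusion_injective (KT_le Δ))
  have hB := baseO Δ hs hT hq hI.img
  refine H398.RG.cond_of_perfect (p := r) hB.leX ?_ hB.pgrp ?_
  · obtain ⟨k, hk, hY⟩ := hB.conjY
    rw [← hY]
    exact H398.RG.cj_le_MK hk
  · obtain ⟨F, _, _, φ, hF, hφ, -⟩ := hI.range
    rw [← hφ, MonoidHom.range_eq_map, ← Subgroup.map_commutator]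
    have h5 : commutator (Matrix.SpecialLinearGroup (Fin 2) F) = ⊤ :=
      Cfsg.Agent.TwoFusion.SLTwoFacts.commutator_eq_top (by rw [hF]; omega)
    rw [commutator_def] at h5
    rw [h5]

/-- **The component.** -/
theorem coreO [Finite ↥(fixC α t)] {q e' : ℕ} (hq : q = r ^ e') (h6 : 6 ≤ q) (h9 : q ≠ 9)
    (hI : ImgK q (Xo D l α θ b) (Xo D l α θ (-b))) :
    Xo D l α θ b ≤ MK (KT hp α t) (Xo D l α θ b) ∧ Xo D l α θ (-b) ≤ MK (KT hp α t) (Xo D l α θ b) ∧
      MK (KT hp α t) (Xo D l α θ b) ≤ KT hp α t ∧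
      ⁅MK (KT hp α t) (Xo D l α θ b), MK (KT hp α t) (Xo D l α θ b)⁆ = MK (KT hp α t) (Xo D l α θ b) ∧
      H873.RG.NSA (↥(MK (KT hp α t) (Xo D l α θ b)) ⧸ Subgroup.center ↥(MK (KT hp α t) (Xo D l α θ b))) := by
  have hfin : Finite ↥(KT hp α t) := Finite.of_injective _ (Subgroup.inclusion_injective (KT_le Δ))
  have hB := baseO Δ hs hT hq hI.img
  have hC := condO Δ hs hT hq (by omega) hI
  obtain ⟨h1, h2, h3, -, h5, -, -⟩ := hB.all hC
  refine ⟨h1, h2, h3, h5, ?_⟩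
  exact H884.NA.nsa_base hB hC hq hI.img (Or.inl ⟨by omega, by omega, by omega, h9⟩)

end Conc

end Cfsg.Agent.H338.RG
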