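import Cfsg.Agent.H338.RG.K1Base

/-!
# S3509, `E₆`, `²E₆`: the component of a 3-orbit of root groups is normal in the centraliser (helper338)

* `rep_b` : `w ∈ PP t` permutes the highest roots `orb θ b`;
* `norm_M` : the elements of `fixC α t` normalise `M = MK (KT hp α t) (Xo D l α θ b)`;
* `eq_one_Up`, `PK_le_M`, `QK_le_M` : `PK, QK ≤ M`.
-/

set_option autoImplicit false
set_option linter.unusedSectionVars false

namespace Cfsg.Agent.H338.RG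

open CoxeterSystem Cfsg Cfsg.Lie Cfsg.Lie.ChevalleyDatum
open Cfsg.Agent.ChevalleyStructure Cfsg.Agent.ChevalleyStructure.Elts Cfsg.Agent.ChevalleyStructure.CoxeterGeom
  Cfsg.Agent.ChevalleyStructure.CoxeterGeomTypes Cfsg.Agent.ChevalleyStructure.NPerm
open Cfsg.Agent.Tits.Roots Cfsg.Agent.Tits.Core Cfsg.Agent.Nodes Cfsg.Agent.Nodes.Reps Cfsg.Agent.Nodes.BNOf
  Cfsg.Agent.Nodes.RGDChev Cfsg.Agent.Nodes.Bruhat Cfsg.Agent.Nodes.NormalForm Cfsg.Agent.Nodes.Coroot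
open Cfsg.Agent.KFacts.RgdField Cfsg.Agent.KFacts.RgdChevCoord Cfsg.Agent.KFacts.RgdSL
open Cfsg.Agent.BpExc Cfsg.Agent.BpExc.TorCent Cfsg.Agent.BpExc.TorChev Cfsg.Agent.BpExc.Tow
  Cfsg.Agent.BpExc.TowChev Cfsg.Agent.BpExc.Fr Cfsg.Agent.BpExc.Pair Cfsg.Agent.BpExc.LangFr Cfsg.Agent.GpExc.Field
  Cfsg.Agent.BpExc.NInst Cfsg.Agent.BpExc.NChev
open Cfsg.Agent.H469.Exc Cfsg.Agent.H316.U6 Cfsg.Agent.H28.RG Cfsg.Agent.H169.RG
open Cfsg.Agent.H441.RG hiding KT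
open Cfsg.Agent.H398.RG (MK Cond Base conj_MK MK_le le_MK)

universe u v

section Lat

variable {I W : Type*} [Fintype I] [DecidableEq I] [Group W] [Finite W] {M : CoxeterMatrix I}
  {A : I → I → ℤ} {cs : CoxeterSystem M W} {h : IsCartan M A} {S : Set (I → ℤ)} {θ : (I → ℤ) ≃+ (I → ℤ)}
  {b c d u v : I → ℤ}

/-- the maximal positive roots of `S` -/
theorem Tri.mem_orb_of_max (H : Tri cs h S θ b c d u v) {x : I → ℤ} (hx : x ∈ S) (h0 : 0 ≤ x)
    (hm : ∀ a ∈ S, 0 ≤ a → ¬ IsRoot cs h (x + a)) : x ∈ orb θ b := by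
  have tS : ∀ {a : I → ℤ}, a ∈ S ∧ 0 ≤ a → θ a ∈ S ∧ 0 ≤ θ a := fun ha => ⟨(H.mem _).2 ha.1, H.pos _ ha.1 ha.2⟩
  have hc : c ∈ S ∧ 0 ≤ c := ⟨H.cS, H.c0⟩
  have hd : d ∈ S ∧ 0 ≤ d := ⟨H.dS, H.d0⟩
  have r0 : IsRoot cs h (c + d) := by rw [← H.bcd]; exact H.bR
  have r0' : IsRoot cs h (d + c) := by rw [add_comm]; exact r0
  have tR : ∀ {x y : I → ℤ}, IsRoot cs h (x + y) → IsRoot cs h (θ x + θ y) := fun hxy => by
    rw [← map_add]; exact (H.root _).2 hxy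
  rcases H.all x hx h0 with (rfl | rfl | rfl) | (rfl | rfl | rfl) | (rfl | rfl | rfl)
  · exact Or.inl rfl
  · exact absurd r0 (hm d hd.1 hd.2)
  · exact absurd r0' (hm c hc.1 hc.2)
  · exact Or.inr (Or.inl rfl)
  · exact absurd (tR r0) (hm _ (tS hd).1 (tS hd).2)
  · exact absurd (tR r0') (hm _ (tS hc).1 (tS hc).2)
  · exact Or.inr (Or.inr rfl)
  · exact absurd (tR (tR r0)) (hm _ (tS (tS hd)).1 (tS (tS hd)).2)
  · exact absurd (tR (tR r0')) (hm _ (tS (tS hc)).1 (tS (tS hc)).2)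

/-- the orbit of a member -/
theorem O3.orb_eq {x y : I → ℤ} (H : O3 cs h θ x) (hy : y ∈ orb θ x) : orb θ y = orb θ x := by
  rcases hy with rfl | rfl | rfl
  · rfl
  · ext z
    rw [mem_orb, mem_orb, H.per]
    tauto
  · ext z
    rw [mem_orb, mem_orb, H.per]
    tauto

end Lat

section Conc

variable {D : ChevalleyDatum} {l : ℕ} {M : CoxeterMatrix (Fin l)} {hp : IsType D l M} {r : ℕ} [hr : Fact r.Prime]
  {e : ℕ} {α : MulAut ↥(D.group (KK r))} {θ : (Fin l → ℤ) ≃+ (Fin l → ℤ)} {t : ↥(D.group (KK r))}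
  (Δ : Wk.DFr hp M.toCoxeterSystem r e α θ t)
  {b c d u v : Fin l → ℤ} (hs : SL M.toCoxeterSystem hp.isCartan)
  (hT : Tri M.toCoxeterSystem hp.isCartan (Sx M.toCoxeterSystem hp.isCartan (ch hp) t) θ b c d u v)
  [Finite M.Group]

include hs hT

/-- the elements of the component group permute the highest roots -/
theorem rep_b {w : M.Group} (hw : w ∈ PP M.toCoxeterSystem hp.isCartan (ch hp) t) :
    rep M.toCoxeterSystem hp.isCartan w b ∈ orb θ b := by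
  have hSx : ∀ {w : M.Group}, w ∈ PP M.toCoxeterSystem hp.isCartan (ch hp) t → ∀ {a : Fin l → ℤ},
      a ∈ Sx M.toCoxeterSystem hp.isCartan (ch hp) t → rep M.toCoxeterSystem hp.isCartan w a ∈
        Sx M.toCoxeterSystem hp.isCartan (ch hp) t := fun hw a ha =>
    ⟨ha.1.act _, by rw [(mem_PP.1 hw).1 a ha.1]; exact ha.2⟩
  refine hT.mem_orb_of_max (hSx hw hT.bS) ((mem_PP.1 hw).2 b hT.bS hT.b0) fun a ha h0 hra => ?_
  have hw' := inv_mem hw
  refine hT.top hs (x := b) (a := rep M.toCoxeterSystem hp.isCartan w⁻¹ a) (Or.inl rfl) (hSx hw' ha)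
    ((mem_PP.1 hw').2 a ha h0) ?_
  have h1 := hra.act w⁻¹
  rwa [map_add, ← rep_mul_apply, inv_mul_cancel, map_one, Module.End.one_apply] at h1

include Δ

/-- **`M` is normal in the centraliser.** -/
theorem norm_M [Finite ↥(fixC α t)] {g : ↥(D.group (KK r))} (hg : g ∈ fixC α t) :
    g ∈ Subgroup.normalizer (MK (KT hp α t) (Xo D l α θ b) : Set ↥(D.group (KK r))) := by
  have key : ∀ {g : ↥(D.group (KK r))}, g ∈ fixC α t → ∀ m ∈ MK (KT hp α t) (Xo D l α θ b),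
      g * m * g⁻¹ ∈ MK (KT hp α t) (Xo D l α θ b) := by
    intro g hg
    obtain ⟨κ, hκ, w, hw, y, hyC, hy, e1⟩ := Δ.frattiniC (locFin r) hg
    obtain ⟨hαy, hyt⟩ := mem_fixC.1 hyC
    have hκK : κ ∈ KT hp α t := (le_sup_left : _ ≤ KT hp α t) hκ
    have h3 := cjS_Xo Δ hy hαy (x := b) hT.o3.rts
    rw [Xo_congr hT (hT.o3.orb_eq (rep_b hs hT hw))] at h3
    have hgX : ∀ x ∈ Xo D l α θ b, g * x * g⁻¹ ∈ MK (KT hp α t) (Xo D l α θ b) := by
      intro x hx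
      have h4 : y * x * y⁻¹ ∈ Xo D l α θ b := by
        rw [← h3]
        exact ⟨x, hx, rfl⟩
      have e2 : g * x * g⁻¹ = κ * (y * x * y⁻¹) * κ⁻¹ := by rw [e1]; group
      rw [e2]
      exact Subgroup.subset_closure ⟨κ, hκK, _, h4, rfl⟩
    have h5 : MK (KT hp α t) (Xo D l α θ b) ≤ (MK (KT hp α t) (Xo D l α θ b)).comap (MulAut.conj g).toMonoidHom := by
      refine MK_le fun k hk x hx => ?_
      change g * (k * x * k⁻¹) * g⁻¹ ∈ MK (KT hp α t) (Xo D l α θ b)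
      have h6 : g * k * g⁻¹ ∈ KT hp α t :=
        (Δ.KT_normal (locFin r)).conj_mem ⟨k, KT_le Δ hk⟩ hk ⟨g, hg⟩
      have e2 : g * (k * x * k⁻¹) * g⁻¹ = (g * k * g⁻¹) * (g * x * g⁻¹) * (g * k * g⁻¹)⁻¹ := by group
      rw [e2]
      exact conj_MK h6 (hgX x hx)
    exact fun m hm => h5 hm
  rw [Subgroup.mem_normalizer_iff]
  intro m
  refine ⟨key hg m, fun hm => ?_⟩
  have h1 := key (inv_mem hg) _ hm
  have e2 : g⁻¹ * (g * m * g⁻¹) * g⁻¹⁻¹ = m := by group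
  rwa [e2] at h1

omit hs hT Δ in
/-- the elements of `U` commuting with two elements of the torus -/
theorem mem_Up2 {t h' : ↥(D.group (KK r))} (ht : t ∈ TT D (KK r)) (hh : h' ∈ TT D (KK r)) {x : ↥(D.group (KK r))}
    (hx : x ∈ RGD.Sup (XX D l (KK r)) (RGD.Pos M.toCoxeterSystem hp.isCartan)) (hc : x * t = t * x)
    (hc' : x * h' = h' * x) : x ∈ RGD.Sup (XX D l (KK r))
      {a | a ∈ SP M.toCoxeterSystem hp.isCartan (ch hp) t ∧ a ∈ Sx M.toCoxeterSystem hp.isCartan (ch hp) h'} := by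
  have H := tow (k := KK r) hp M.toCoxeterSystem (locFin r) r
  have C := coordK (hp := hp) (r := r)
  rw [← XL_eq hp (locFin r)] at hx ⊢
  rw [← TL_eq hp (locFin r)] at ht hh
  obtain ⟨j1, h1⟩ := H.mem_Sup.1 hx
  obtain ⟨j2, h2⟩ := H.mem_TL.1 ht
  obtain ⟨j3, h3⟩ := H.mem_TL.1 hh
  obtain ⟨j4, a1, a2⟩ := H.dir j1 j2
  obtain ⟨j, a3, a4⟩ := H.dir j4 j3
  have h4 : x ∈ RGD.Sup (Xj hp (k := KK r) j) (RGD.Pos M.toCoxeterSystem hp.isCartan) ⊓ Subgroup.centralizer {t, h'} := by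
    refine ⟨H.mono_Sup _ (a1.trans a3) h1, Subgroup.mem_centralizer_iff.2 ?_⟩
    rintro z (rfl | rfl)
    · exact hc.symm
    · exact hc'.symm
  rw [centralizer_U (H.rgd j) (S := {t, h'}) (by
    rintro z (rfl | rfl)
    · exact H.monoT (a2.trans a3) h2
    · exact H.monoT a4 h3)] at h4
  refine (RGD.Sup_le fun a ha => ?_ : RGD.Sup (fun x => Xj hp (k := KK r) j x ⊓ Subgroup.centralizer {t, h'})
    (RGD.Pos M.toCoxeterSystem hp.isCartan) ≤ _) h4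
  rintro y ⟨hy, hyc⟩
  by_cases hy1 : y = 1
  · rw [hy1]; exact one_mem _
  · have hyc := Subgroup.mem_centralizer_iff.1 hyc
    refine RGD.le_Sup (S := {a | a ∈ SP M.toCoxeterSystem hp.isCartan (ch hp) t ∧
      a ∈ Sx M.toCoxeterSystem hp.isCartan (ch hp) h'}) ⟨⟨?_, ha.2⟩, ?_⟩ (le_XL j a hy)
    · exact mem_Sx_of_centralizer C ht ha.1 (le_XL j a hy) hy1
        (Subgroup.mem_centralizer_singleton_iff.2 (hyc t (by simp)).symm)
    · exact mem_Sx_of_centralizer C hh ha.1 (le_XL j a hy) hy1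
        (Subgroup.mem_centralizer_singleton_iff.2 (hyc h' (by simp)).symm)

omit Δ hs in
/-- an element of the torus fixed by `α`, acting without fixed points on the first component -/
theorem no_Sx (Δ : Wk.DFr hp M.toCoxeterSystem r e α θ t) {h' : ↥(D.group (KK r))} (hh : h' ∈ TT D (KK r)) (hα : α h' = h')
    (hb : ch hp b h' ≠ 1) (hc : ch hp c h' ≠ 1) (hd : ch hp d h' ≠ 1) {a : Fin l → ℤ}
    (ha : a ∈ SP M.toCoxeterSystem hp.isCartan (ch hp) t) : a ∉ Sx M.toCoxeterSystem hp.isCartan (ch hp) h' := by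
  have hst : ∀ a, θ a ∈ Sx M.toCoxeterSystem hp.isCartan (ch hp) h' ↔
      a ∈ Sx M.toCoxeterSystem hp.isCartan (ch hp) h' := fun a =>
    (Δ.frTL (locFin r)).mem_Sx coordK (t := h') (by rw [TL_eq hp (locFin r)]; exact hh) hα a
  obtain ⟨y, hy, h1⟩ := hT.exists_base ha.1 ha.2
  have hy' : y ∉ Sx M.toCoxeterSystem hp.isCartan (ch hp) h' := by
    rintro ⟨-, h2⟩
    rcases hy with rfl | rfl | rfl
    · exact hb h2
    · exact hc h2
    · exact hd h2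
  rcases h1 with rfl | rfl | rfl
  · exact hy'
  · rwa [hst]
  · rwa [hst, hst]

/-- **`PK ≤ M`.** -/
theorem PK_le_M [Finite ↥(fixC α t)] {h' : ↥(D.group (KK r))} (hM : h' ∈ MK (KT hp α t) (Xo D l α θ b))
    (hh : h' ∈ TT D (KK r)) (hα : α h' = h')
    (hb : ch hp b h' ≠ 1) (hc : ch hp c h' ≠ 1) (hd : ch hp d h' ≠ 1) :
    PK hp M.toCoxeterSystem α t ≤ MK (KT hp α t) (Xo D l α θ b) := by
  have hfin : Finite ↥(PK hp M.toCoxeterSystem α t) :=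
    Finite.of_injective _ (Subgroup.inclusion_injective (Δ.PK_le (locFin r)))
  have hTK : h' ∈ TK α := ⟨hh, hα⟩
  let f : ↥(PK hp M.toCoxeterSystem α t) → ↥(PK hp M.toCoxeterSystem α t) := fun x =>
    ⟨x * (h' * (x : ↥(D.group (KK r)))⁻¹ * h'⁻¹), mul_mem x.2 (Δ.TK_PK (locFin r) hTK (inv_mem x.2))⟩
  have hf : Function.Injective f := by
    intro x y hxy
    have h1 : (x : ↥(D.group (KK r))) * (h' * (x : ↥(D.group (KK r)))⁻¹ * h'⁻¹) =
        y * (h' * (y : ↥(D.group (KK r)))⁻¹ * h'⁻¹) := congrArg Subtype.val hxy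
    set z : ↥(D.group (KK r)) := (y : ↥(D.group (KK r)))⁻¹ * x with hz
    have hzP : z ∈ PK hp M.toCoxeterSystem α t := mul_mem (inv_mem y.2) x.2
    have h2 : z * h' = h' * z := by
      have e1 : z * h' = (y : ↥(D.group (KK r)))⁻¹ * (x * (h' * (x : ↥(D.group (KK r)))⁻¹ * h'⁻¹)) * h' * x := by
        rw [hz]; group
      rw [e1, h1, hz]
      group
    have h3 : z * t = t * z := (mem_fixC.1 (Δ.PK_le (locFin r) hzP)).2
    have h4 := mem_Up2 (hp := hp) Δ.mem hh (RGD.Sup_mono (S := SP M.toCoxeterSystem hp.isCartan (ch hp) t)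
      (S' := RGD.Pos M.toCoxeterSystem hp.isCartan) (fun a ha => ⟨ha.1.1, ha.2⟩) hzP.1) h3 h2
    have h5 : z = 1 := by
      have h6 : RGD.Sup (XX D l (KK r)) {a | a ∈ SP M.toCoxeterSystem hp.isCartan (ch hp) t ∧
          a ∈ Sx M.toCoxeterSystem hp.isCartan (ch hp) h'} ≤ ⊥ :=
        RGD.Sup_le fun a ha => absurd ha.2 (no_Sx hT Δ hh hα hb hc hd ha.1)
      exact Subgroup.mem_bot.1 (h6 h4)
    rw [hz] at h5
    exact Subtype.ext (inv_mul_eq_one.1 h5).symm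
  have hsurj := Finite.surjective_of_injective hf
  intro x hx
  obtain ⟨y, hy⟩ := hsurj ⟨x, hx⟩
  have e1 : (y : ↥(D.group (KK r))) * (h' * (y : ↥(D.group (KK r)))⁻¹ * h'⁻¹) = x := congrArg Subtype.val hy
  rw [← e1]
  have h1 := (Subgroup.mem_normalizer_iff.1 (norm_M Δ hs hT (Δ.PK_le (locFin r) y.2)) h').1 hM
  have e2 : (y : ↥(D.group (KK r))) * (h' * (y : ↥(D.group (KK r)))⁻¹ * h'⁻¹) =
      ((y : ↥(D.group (KK r))) * h' * (y : ↥(D.group (KK r)))⁻¹) * h'⁻¹ := by group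
  rw [e2]
  exact mul_mem h1 (inv_mem hM)

/-- **`QK ≤ M`.** -/
theorem QK_le_M [Finite ↥(fixC α t)] (hPM : PK hp M.toCoxeterSystem α t ≤ MK (KT hp α t) (Xo D l α θ b)) :
    QK hp M.toCoxeterSystem α t ≤ MK (KT hp α t) (Xo D l α θ b) := by
  obtain ⟨P, hP⟩ := Δ.sylP (locFin r)
  obtain ⟨Q, hQ⟩ := Δ.sylQ (locFin r)
  obtain ⟨g, hg⟩ := MulAction.exists_smul_eq ↥(fixC α t) P Q
  intro x hx
  have hx' : (⟨x, Δ.QK_le (locFin r) hx⟩ : ↥(fixC α t)) ∈ (Q : Subgroup ↥(fixC α t)) := by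
    rw [hQ]; exact hx
  rw [← hg, Sylow.coe_subgroup_smul, Subgroup.mem_pointwise_smul_iff_inv_smul_mem] at hx'
  rw [hP, Subgroup.mem_subgroupOf] at hx'
  have h1 : (g : ↥(D.group (KK r)))⁻¹ * x * g ∈ PK hp M.toCoxeterSystem α t := by
    have h2 : (((MulAut.conj g)⁻¹ • (⟨x, Δ.QK_le (locFin r) hx⟩ : ↥(fixC α t)) : ↥(fixC α t)) :
        ↥(D.group (KK r))) = (g : ↥(D.group (KK r)))⁻¹ * x * g := by
      rw [← map_inv, MulAut.smul_def, MulAut.conj_apply, inv_inv]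
      rfl
    rw [← h2]
    exact hx'
  have h3 := (Subgroup.mem_normalizer_iff.1 (norm_M Δ hs hT g.2) _).1 (hPM h1)
  have e1 : (g : ↥(D.group (KK r))) * ((g : ↥(D.group (KK r)))⁻¹ * x * g) * (g : ↥(D.group (KK r)))⁻¹ = x := by group
  rwa [e1] at h3

end Conc

end Cfsg.Agent.H338.RG
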