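import Cfsg.Agent.H461.E2.Sup
import Cfsg.Agent.KFacts.RgdSL

/-!
# S3509, exceptional groups `E₆`, `²E₆`: three orthogonal subsystems `A₂` permuted cyclically (helper338)

`Tri cs h S θ b c d u v` : `S` is a set of roots of type `A₂ A₂ A₂` with positive roots `θ^i b, θ^i c, θ^i d` (`i < 3`),
`b = c + d` the highest root of the first component, `u, v` roots outside `S` with `b = u + v`, such that `{b, u, v}` is
orthogonal to its images under `θ`, `θ²`; `S` and `u` generate the lattice.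
-/

set_option autoImplicit false
set_option linter.unusedSectionVars false

namespace Cfsg.Agent.H338.RG

open CoxeterSystem Cfsg.Agent.ChevalleyStructure.CoxeterGeom Cfsg.Agent.Tits.Roots Cfsg.Agent.Tits.Core
  Cfsg.Agent.Nodes.Reps Cfsg.Agent.Nodes.Coroot Cfsg.Agent.KFacts.RgdSL

variable {I W : Type*} [Fintype I] [DecidableEq I] [Group W] [Finite W] {M : CoxeterMatrix I}
  {A : I → I → ℤ}

/-- three orthogonal subsystems `A₂` permuted cyclically by `θ` -/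
structure Tri (cs : CoxeterSystem M W) (h : IsCartan M A) (S : Set (I → ℤ)) (θ : (I → ℤ) ≃+ (I → ℤ))
    (b c d u v : I → ℤ) : Prop where
  rts : ∀ a ∈ S, IsRoot cs h a
  neg : ∀ a ∈ S, -a ∈ S
  root : ∀ a, IsRoot cs h (θ a) ↔ IsRoot cs h a
  mem : ∀ a, θ a ∈ S ↔ a ∈ S
  pos : ∀ a ∈ S, 0 ≤ a → 0 ≤ θ a
  bS : b ∈ S
  cS : c ∈ S
  dS : d ∈ S
  b0 : 0 ≤ b
  c0 : 0 ≤ c
  d0 : 0 ≤ d
  bcd : b = c + d
  /-- the positive roots of `S` -/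
  all : ∀ a ∈ S, 0 ≤ a → (a = b ∨ a = c ∨ a = d) ∨ (a = θ b ∨ a = θ c ∨ a = θ d) ∨
    (a = θ (θ b) ∨ a = θ (θ c) ∨ a = θ (θ d))
  uR : IsRoot cs h u
  vR : IsRoot cs h v
  uS : u ∉ S
  vS : v ∉ S
  buv : b = u + v
  tb : θ (θ (θ b)) = b
  tc : (θ (θ (θ c)) = c ∧ θ (θ (θ d)) = d) ∨ (θ (θ (θ c)) = d ∧ θ (θ (θ d)) = c)
  tu : (θ (θ (θ u)) = u ∧ θ (θ (θ v)) = v) ∨ (θ (θ (θ u)) = v ∧ θ (θ (θ v)) = u)
  /-- orthogonality (`cpr` : Cartan integer) -/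
  ort : ∀ x ∈ ({b, c, d} : Set (I → ℤ)), ∀ y ∈ ({b, c, d} : Set (I → ℤ)),
    cpr cs h x (θ y) = 0 ∧ cpr cs h x (θ (θ y)) = 0
  ort' : ∀ x ∈ ({b, u, v} : Set (I → ℤ)), ∀ y ∈ ({b, u, v} : Set (I → ℤ)),
    cpr cs h x (θ y) = 0 ∧ cpr cs h x (θ (θ y)) = 0
  gen : ∀ N : AddSubgroup (I → ℤ), S ⊆ N → u ∈ N → N = ⊤
  three : (3 : ℤ) • u ∈ AddSubgroup.closure S

end Cfsg.Agent.H338.RG
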