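import Cfsg.Agent.H338.RG.Tri

/-!
# S3509, `E₆`, `²E₆`: lattice lemmas for three orthogonal `A₂` permuted cyclically (helper338)
-/

set_option autoImplicit false
set_option linter.unusedSectionVars false

namespace Cfsg.Agent.H338.RG

open CoxeterSystem Cfsg.Agent.ChevalleyStructure.CoxeterGeom Cfsg.Agent.Tits.Roots Cfsg.Agent.Tits.Core
  Cfsg.Agent.Nodes.Reps Cfsg.Agent.Nodes.Coroot Cfsg.Agent.KFacts.RgdSL

variable {I W : Type*} [Fintype I] [DecidableEq I] [Group W] [Finite W] {M : CoxeterMatrix I}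
  {A : I → I → ℤ} {cs : CoxeterSystem M W} {h : IsCartan M A}

/-- the sum of two roots is a root: product `-1` -/
theorem cpr_of_add (hs : SL cs h) {x y : I → ℤ} (hx : IsRoot cs h x) (hy : IsRoot cs h y)
    (hxy : IsRoot cs h (x + y)) : cpr cs h x y = -1 := by
  have e1 : cpr cs h (x + y) x = 2 + cpr cs h x y := by
    rw [cpr_add cs h _ _ hx, cpr_self cs h hx, hs y x hy hx]
  rcases hs.cases hx hy with h2 | h2 | ⟨h2, h3, h4, h5⟩
  · exfalso
    have h6 : x + y = (2 : ℤ) • x := by rw [← h2.1]; module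
    have := isUnit_of_smul cs h hxy 2 h6
    rw [Int.isUnit_iff] at this
    omega
  · exfalso
    rw [h2.1, neg_add_cancel] at hxy
    exact hxy.ne_zero rfl
  · rcases hs.cases hxy hx with h6 | h6 | ⟨-, -, h6, h7⟩
    · exfalso
      exact hy.ne_zero (add_eq_left.1 h6.1)
    · exfalso
      have h7 : y = (-2 : ℤ) • x := by
        have : y = (x + y) - x := by abel
        rw [this, h6.1]; module
      have := isUnit_of_smul cs h hy (-2) h7
      rw [Int.isUnit_iff] at this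
      omega
    · omega

theorem not_add_of_orth (hs : SL cs h) {x y : I → ℤ} (hx : IsRoot cs h x) (hy : IsRoot cs h y)
    (h0 : 0 ≤ cpr cs h x y) : ¬ IsRoot cs h (x + y) := fun h1 => by
  have := cpr_of_add hs hx hy h1
  omega

theorem ne_neg_of_orth {x y : I → ℤ} (hx : IsRoot cs h x) (hy : IsRoot cs h y) (h0 : 0 ≤ cpr cs h x y) : x ≠ -y := by
  rintro rfl
  rw [cpr_neg_left _ hy, cpr_self cs h hy] at h0
  omega

theorem ne_of_orth {x y : I → ℤ} (hy : IsRoot cs h y) (h0 : cpr cs h x y ≤ 0) : x ≠ y := by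
  rintro rfl
  rw [cpr_self cs h hy] at h0
  omega

/-- the orbit -/
def orb (θ : (I → ℤ) ≃+ (I → ℤ)) (x : I → ℤ) : Set (I → ℤ) := {x, θ x, θ (θ x)}

theorem mem_orb {θ : (I → ℤ) ≃+ (I → ℤ)} {x y : I → ℤ} : y ∈ orb θ x ↔ y = x ∨ y = θ x ∨ y = θ (θ x) := Iff.rfl

theorem orb_neg (θ : (I → ℤ) ≃+ (I → ℤ)) (x : I → ℤ) {y : I → ℤ} : y ∈ orb θ (-x) ↔ -y ∈ orb θ x := by
  rw [mem_orb, mem_orb, map_neg, map_neg, neg_eq_iff_eq_neg, neg_eq_iff_eq_neg, neg_eq_iff_eq_neg]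

/-- an orbit of three orthogonal roots -/
structure O3 (cs : CoxeterSystem M W) (h : IsCartan M A) (θ : (I → ℤ) ≃+ (I → ℤ)) (x : I → ℤ) : Prop where
  root : ∀ a, IsRoot cs h (θ a) ↔ IsRoot cs h a
  rt : IsRoot cs h x
  per : θ (θ (θ x)) = x
  o1 : cpr cs h x (θ x) = 0
  o2 : cpr cs h x (θ (θ x)) = 0

theorem cpr_theta' (hs : SL cs h) {θ : (I → ℤ) ≃+ (I → ℤ)} (hr : ∀ a, IsRoot cs h (θ a) ↔ IsRoot cs h a)
    {a b : I → ℤ} (ha : IsRoot cs h a) (hb : IsRoot cs h b) : cpr cs h (θ a) (θ b) = cpr cs h a b := by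
  have ha' := (hr _).2 ha
  have hb' := (hr _).2 hb
  have k2 : ∀ {x y : I → ℤ}, IsRoot cs h x → IsRoot cs h y → (IsRoot cs h (x + y) ↔ cpr cs h x y = -1) :=
    fun hx hy => ⟨cpr_of_add hs hx hy, isRoot_add hx hy⟩
  have k1 : ∀ {x y : I → ℤ}, IsRoot cs h x → IsRoot cs h y → (IsRoot cs h (x - y) ↔ cpr cs h x y = 1) := by
    intro x y hx hy
    have := k2 hx hy.neg
    rw [← sub_eq_add_neg, cpr_neg_right cs h x hy] at this
    rw [this]
    constructor <;> intro h1 <;> omega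
  rcases hs.cases ha hb with h1 | h1 | ⟨h1, h2, h3, h4⟩
  · rw [h1.1, cpr_self cs h hb', cpr_self cs h hb]
  · rw [h1.1, map_neg, cpr_neg_left _ hb', cpr_neg_left _ hb, cpr_self cs h hb', cpr_self cs h hb]
  · have g1 : θ a ≠ θ b := fun h => h1 (θ.injective h)
    have g2 : θ a ≠ -θ b := fun h => h2 (θ.injective (by rw [h, map_neg]))
    rcases hs.cases ha' hb' with h5 | h5 | ⟨-, -, h5, h6⟩
    · exact absurd h5.1 g1
    · exact absurd h5.1 g2
    · have m1 := (k1 ha' hb').symm.trans ((by rw [← map_sub]; exact hr _ : IsRoot cs h (θ a - θ b) ↔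
        IsRoot cs h (a - b)).trans (k1 ha hb))
      have m2 := (k2 ha' hb').symm.trans ((by rw [← map_add]; exact hr _ : IsRoot cs h (θ a + θ b) ↔
        IsRoot cs h (a + b)).trans (k2 ha hb))
      omega

namespace O3

variable {θ : (I → ℤ) ≃+ (I → ℤ)} {x : I → ℤ}

theorem neg (H : O3 cs h θ x) : O3 cs h θ (-x) where
  root := H.root
  rt := H.rt.neg
  per := by rw [map_neg, map_neg, map_neg, H.per]
  o1 := by rw [map_neg, cpr_neg_left _ ((H.root _).2 H.rt).neg, cpr_neg_right cs h _ ((H.root _).2 H.rt), H.o1]; simp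
  o2 := by
    rw [map_neg, map_neg, cpr_neg_left _ ((H.root _).2 ((H.root _).2 H.rt)).neg,
      cpr_neg_right cs h _ ((H.root _).2 ((H.root _).2 H.rt)), H.o2]
    simp

theorem r1 (H : O3 cs h θ x) : IsRoot cs h (θ x) := (H.root _).2 H.rt

theorem r2 (H : O3 cs h θ x) : IsRoot cs h (θ (θ x)) := (H.root _).2 H.r1

theorem rts (H : O3 cs h θ x) : ∀ y ∈ orb θ x, IsRoot cs h y := by
  rintro y (rfl | rfl | rfl)
  · exact H.rt
  · exact H.r1
  · exact H.r2

theorem o12 (H : O3 cs h θ x) (hs : SL cs h) : cpr cs h (θ x) (θ (θ x)) = 0 := by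
  rw [cpr_theta' hs H.root H.rt H.r1, H.o1]

/-- different members are orthogonal -/
theorem orth (H : O3 cs h θ x) (hs : SL cs h) {y z : I → ℤ} (hy : y ∈ orb θ x) (hz : z ∈ orb θ x) (hyz : y ≠ z) :
    cpr cs h y z = 0 := by
  have h12 := H.o12 hs
  rcases hy with rfl | rfl | rfl <;> rcases hz with rfl | rfl | rfl
  · exact absurd rfl hyz
  · exact H.o1
  · exact H.o2
  · rw [hs _ _ H.r1 H.rt]; exact H.o1
  · exact absurd rfl hyz
  · exact h12
  · rw [hs _ _ H.r2 H.rt]; exact H.o2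
  · rw [hs _ _ H.r2 H.r1]; exact h12
  · exact absurd rfl hyz

theorem stab (H : O3 cs h θ x) : ∀ y ∈ orb θ x, θ y ∈ orb θ x := by
  rintro y (rfl | rfl | rfl)
  · exact Or.inr (Or.inl rfl)
  · exact Or.inr (Or.inr rfl)
  · exact Or.inl H.per

theorem stab_iff (H : O3 cs h θ x) (y : I → ℤ) : θ y ∈ orb θ x ↔ y ∈ orb θ x := by
  refine ⟨fun hy => ?_, H.stab y⟩
  rcases hy with h1 | h1 | h1
  · right; right
    apply θ.injective
    rw [h1, H.per]
  · left
    exact θ.injective h1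
  · right; left
    exact θ.injective h1

/-- the orbit is closed -/
theorem zcl (H : O3 cs h θ x) (hs : SL cs h) : H461.E2.Sup.ZCl cs h (orb θ x) := by
  rintro y hy z hz w hw ⟨i, j, hi, hj, rfl⟩
  by_cases hyz : y = z
  · exfalso
    subst hyz
    have h6 : i • y + j • y = ((i : ℤ) + j) • y := by
      rw [add_smul, natCast_zsmul, natCast_zsmul]
    have := isUnit_of_smul cs h hw _ h6
    rw [Int.isUnit_iff] at this
    omega
  · exfalso
    have h0 := H.orth hs hy hz hyz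
    have hy' := H.rts y hy
    have hz' := H.rts z hz
    have h1 : cpr cs h (i • y + j • z) y = 2 * i := by
      rw [← natCast_zsmul y, ← natCast_zsmul z, cpr_add cs h _ _ hy', cpr_smul cs h _ _ hy', cpr_smul cs h _ _ hy',
        cpr_self cs h hy', hs z y hz' hy', h0]
      ring
    rcases hs.cases hw hy' with h2 | h2 | h2
    · have h3 : cpr cs h (i • y + j • z) z = 2 * j := by
        rw [← natCast_zsmul y, ← natCast_zsmul z, cpr_add cs h _ _ hz', cpr_smul cs h _ _ hz', cpr_smul cs h _ _ hz',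
          cpr_self cs h hz', h0]
        ring
      rw [h2.1, h0] at h3
      omega
    · omega
    · omega

end O3

namespace Tri

variable {S : Set (I → ℤ)} {θ : (I → ℤ) ≃+ (I → ℤ)} {b c d u v : I → ℤ}

theorem bR (H : Tri cs h S θ b c d u v) : IsRoot cs h b := H.rts _ H.bS
theorem cR (H : Tri cs h S θ b c d u v) : IsRoot cs h c := H.rts _ H.cS
theorem dR (H : Tri cs h S θ b c d u v) : IsRoot cs h d := H.rts _ H.dS

theorem o3 (H : Tri cs h S θ b c d u v) : O3 cs h θ b where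
  root := H.root
  rt := H.bR
  per := H.tb
  o1 := (H.ort b (by simp) b (by simp)).1
  o2 := (H.ort b (by simp) b (by simp)).2

theorem cpr_cd (H : Tri cs h S θ b c d u v) (hs : SL cs h) : cpr cs h c d = -1 :=
  cpr_of_add hs H.cR H.dR (by rw [← H.bcd]; exact H.bR)

theorem cpr_bc (H : Tri cs h S θ b c d u v) (hs : SL cs h) : cpr cs h b c = 1 := by
  rw [H.bcd, cpr_add cs h _ _ H.cR, cpr_self cs h H.cR, hs d c H.dR H.cR, H.cpr_cd hs]; norm_num

theorem cpr_bd (H : Tri cs h S θ b c d u v) (hs : SL cs h) : cpr cs h b d = 1 := by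
  rw [H.bcd, cpr_add cs h _ _ H.dR, cpr_self cs h H.dR, H.cpr_cd hs]; norm_num

theorem cpr_uv (H : Tri cs h S θ b c d u v) (hs : SL cs h) : cpr cs h u v = -1 :=
  cpr_of_add hs H.uR H.vR (by rw [← H.buv]; exact H.bR)

theorem cpr_bu (H : Tri cs h S θ b c d u v) (hs : SL cs h) : cpr cs h b u = 1 := by
  rw [H.buv, cpr_add cs h _ _ H.uR, cpr_self cs h H.uR, hs v u H.vR H.uR, H.cpr_uv hs]; norm_num

theorem cpr_bv (H : Tri cs h S θ b c d u v) (hs : SL cs h) : cpr cs h b v = 1 := by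
  rw [H.buv, cpr_add cs h _ _ H.vR, cpr_self cs h H.vR, H.cpr_uv hs]; norm_num

/-- the positive roots of `S`, as images under the powers of `θ` -/
theorem exists_base (H : Tri cs h S θ b c d u v) {a : I → ℤ} (ha : a ∈ S) (h0 : 0 ≤ a) :
    ∃ y ∈ ({b, c, d} : Set (I → ℤ)), a = y ∨ a = θ y ∨ a = θ (θ y) := by
  rcases H.all a ha h0 with (h1 | h1 | h1) | (h1 | h1 | h1) | (h1 | h1 | h1)
  · exact ⟨b, by simp, Or.inl h1⟩
  · exact ⟨c, by simp, Or.inl h1⟩
  · exact ⟨d, by simp, Or.inl h1⟩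
  · exact ⟨b, by simp, Or.inr (Or.inl h1)⟩
  · exact ⟨c, by simp, Or.inr (Or.inl h1)⟩
  · exact ⟨d, by simp, Or.inr (Or.inl h1)⟩
  · exact ⟨b, by simp, Or.inr (Or.inr h1)⟩
  · exact ⟨c, by simp, Or.inr (Or.inr h1)⟩
  · exact ⟨d, by simp, Or.inr (Or.inr h1)⟩

theorem rbcd (H : Tri cs h S θ b c d u v) {y : I → ℤ} (hy : y ∈ ({b, c, d} : Set (I → ℤ))) : IsRoot cs h y := by
  rcases hy with rfl | rfl | rfl
  · exact H.bR
  · exact H.cR
  · exact H.dR

theorem Sbcd (H : Tri cs h S θ b c d u v) {y : I → ℤ} (hy : y ∈ ({b, c, d} : Set (I → ℤ))) : y ∈ S ∧ 0 ≤ y := by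
  rcases hy with rfl | rfl | rfl
  · exact ⟨H.bS, H.b0⟩
  · exact ⟨H.cS, H.c0⟩
  · exact ⟨H.dS, H.d0⟩

/-- the products of `b` with the positive roots of `S` are `≥ 0` -/
theorem cpr_b_nonneg (H : Tri cs h S θ b c d u v) (hs : SL cs h) {a : I → ℤ} (ha : a ∈ S) (h0 : 0 ≤ a) :
    0 ≤ cpr cs h b a := by
  obtain ⟨y, hy, h1⟩ := H.exists_base ha h0
  have h2 := H.ort b (by simp) y hy
  rcases h1 with rfl | rfl | rfl
  · rcases hy with rfl | rfl | rfl
    · rw [cpr_self cs h H.bR]; norm_num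
    · rw [H.cpr_bc hs]; norm_num
    · rw [H.cpr_bd hs]; norm_num
  · rw [h2.1]
  · rw [h2.2]

/-- the members of `S` have preimages in `S` -/
theorem symm_mem (H : Tri cs h S θ b c d u v) {a : I → ℤ} (ha : a ∈ S) : θ.symm a ∈ S := by
  rw [← H.mem, AddEquiv.apply_symm_apply]; exact ha

theorem symm_pos (H : Tri cs h S θ b c d u v) {a : I → ℤ} (ha : a ∈ S) (h0 : 0 ≤ a) : 0 ≤ θ.symm a := by
  have h1 := H.symm_mem ha
  rcases (H.rts _ h1).pos_or_neg with h2 | h2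
  · exact h2
  · exfalso
    have h3 := H.pos _ (H.neg _ h1) (neg_nonneg.2 h2)
    rw [map_neg, AddEquiv.apply_symm_apply] at h3
    exact (H.rts _ ha).not_pos_neg h0 (neg_nonneg.1 h3)

/-- the images of `b` and the positive roots of `S` -/
theorem cpr_orb_nonneg (H : Tri cs h S θ b c d u v) (hs : SL cs h) {x a : I → ℤ} (hx : x ∈ orb θ b) (ha : a ∈ S)
    (h0 : 0 ≤ a) : 0 ≤ cpr cs h x a := by
  have key : ∀ {x a : I → ℤ}, IsRoot cs h x → (∀ a ∈ S, 0 ≤ a → 0 ≤ cpr cs h x a) → a ∈ S → 0 ≤ a →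
      0 ≤ cpr cs h (θ x) a := by
    intro x a hx hx' ha h0
    have h1 := hx' _ (H.symm_mem ha) (H.symm_pos ha h0)
    rw [← cpr_theta' hs H.root hx (H.rts _ (H.symm_mem ha)), AddEquiv.apply_symm_apply] at h1
    exact h1
  rcases hx with rfl | rfl | rfl
  · exact H.cpr_b_nonneg hs ha h0
  · exact key H.bR (fun a ha h0 => H.cpr_b_nonneg hs ha h0) ha h0
  · exact key H.o3.r1 (fun a ha h0 => key H.bR (fun a ha h0 => H.cpr_b_nonneg hs ha h0) ha h0) ha h0

/-- the images of `b` are maximal -/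
theorem top (H : Tri cs h S θ b c d u v) (hs : SL cs h) {x a : I → ℤ} (hx : x ∈ orb θ b) (ha : a ∈ S)
    (h0 : 0 ≤ a) : ¬ IsRoot cs h (x + a) :=
  not_add_of_orth hs (H.o3.rts x hx) (H.rts a ha) (H.cpr_orb_nonneg hs hx ha h0)

theorem orbS (H : Tri cs h S θ b c d u v) {x : I → ℤ} (hx : x ∈ orb θ b) : x ∈ S ∧ 0 ≤ x := by
  have h1 : θ b ∈ S ∧ 0 ≤ θ b := ⟨(H.mem _).2 H.bS, H.pos _ H.bS H.b0⟩
  rcases hx with rfl | rfl | rfl
  · exact ⟨H.bS, H.b0⟩
  · exact h1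
  · exact ⟨(H.mem _).2 h1.1, H.pos _ h1.1 h1.2⟩

/-- orthogonality of different components -/
theorem ort3 (H : Tri cs h S θ b c d u v) (hs : SL cs h) {y z : I → ℤ} (hy : y ∈ ({b, c, d} : Set (I → ℤ)))
    (hz : z ∈ ({b, c, d} : Set (I → ℤ))) : cpr cs h y (θ z) = 0 ∧ cpr cs h y (θ (θ z)) = 0 ∧
      cpr cs h (θ y) (θ (θ z)) = 0 ∧ cpr cs h (θ y) z = 0 ∧ cpr cs h (θ (θ y)) z = 0 ∧
      cpr cs h (θ (θ y)) (θ z) = 0 := by
  have hyr := H.rbcd hy
  have hzr := H.rbcd hz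
  have hz1 := (H.root _).2 hzr
  have hz2 := (H.root _).2 hz1
  have hy1 := (H.root _).2 hyr
  have hy2 := (H.root _).2 hy1
  obtain ⟨h1, h2⟩ := H.ort y hy z hz
  obtain ⟨h3, h4⟩ := H.ort z hz y hy
  refine ⟨h1, h2, ?_, ?_, ?_, ?_⟩
  · rw [cpr_theta' hs H.root hyr hz1, h1]
  · rw [hs _ _ hy1 hzr, h3]
  · rw [hs _ _ hy2 hzr, h4]
  · rw [cpr_theta' hs H.root hy1 hzr, hs _ _ hy1 hzr, h3]

/-- a member of `S` fixed by `θ³` has the orbit of a member of the first component -/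
theorem exists_orb (H : Tri cs h S θ b c d u v) {a : I → ℤ} (ha : a ∈ S) (h3 : θ (θ (θ a)) = a) :
    ∃ y, θ (θ (θ y)) = y ∧ (y ∈ ({b, c, d} : Set (I → ℤ)) ∨ -y ∈ ({b, c, d} : Set (I → ℤ))) ∧ orb θ a = orb θ y := by
  have key : ∀ {a y : I → ℤ}, θ (θ (θ a)) = a → (a = y ∨ a = θ y ∨ a = θ (θ y)) →
      θ (θ (θ y)) = y ∧ orb θ a = orb θ y := by
    rintro a y h3 (rfl | rfl | rfl)
    · exact ⟨h3, rfl⟩
    · have h4 := θ.injective h3
      refine ⟨h4, ?_⟩
      ext z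
      rw [mem_orb, mem_orb, h4]
      tauto
    · have h4 := θ.injective (θ.injective h3)
      refine ⟨h4, ?_⟩
      ext z
      rw [mem_orb, mem_orb, h4]
      tauto
  rcases (H.rts _ ha).pos_or_neg with h0 | h0
  · obtain ⟨y, hy, h1⟩ := H.exists_base ha h0
    obtain ⟨h4, h5⟩ := key h3 h1
    exact ⟨y, h4, Or.inl hy, h5⟩
  · obtain ⟨y, hy, h1⟩ := H.exists_base (H.neg _ ha) (neg_nonneg.2 h0)
    obtain ⟨h4, h5⟩ := key (a := -a) (by rw [map_neg, map_neg, map_neg, h3]) h1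
    refine ⟨-y, by rw [map_neg, map_neg, map_neg, h4], Or.inr (by rwa [_root_.neg_neg]), ?_⟩
    ext z
    rw [orb_neg, ← h5, orb_neg, _root_.neg_neg]

end Tri

end Cfsg.Agent.H338.RG
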